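import Mathlib.LinearAlgebra.TensorPower.Symmetric
import Mathlib.LinearAlgebra.Multilinear.Basis
import Mathlib.Algebra.MvPolynomial.Basic
import Mathlib.RingTheory.MvPolynomial.Basic
import Mathlib.Algebra.Module.Projective
import Mathlib.Data.Sym.Basic
import Mathlib.Data.Finsupp.Multiset
import Mathlib.LinearAlgebra.Basis.Basic
import Mathlib.LinearAlgebra.FreeModule.Basic
import Mathlib.Algebra.BigOperators.Finsupp.Basic

/-!
# Symmetric powers of free and projective modules

For a free module `M` with basis `b : κ → M` the symmetric power `Sym^ι M` has a basis indexed by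
the multisets of elements of `κ` of cardinality `card ι` (monomials). Consequently symmetric powers of
projective modules are projective.
-/

set_option autoImplicit false

noncomputable section

namespace Groth.Agent.Ega4late.H518.SymFree

open scoped TensorProduct

universe u v w

section lift

variable {R ι : Type u} [CommRing R] {M : Type v} [AddCommGroup M] [Module R M]
  {N : Type w} [AddCommGroup N] [Module R N]

/-- The linear map out of a symmetric power induced by a symmetric multilinear map. -/
def lift (f : MultilinearMap R (fun _ : ι => M) N)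
    (hf : ∀ (e : Equiv.Perm ι) (m : ι → M), f (fun i => m (e i)) = f m) :
    SymmetricPower R ι M →ₗ[R] N where
  toFun := AddCon.lift _ (PiTensorProduct.lift f).toAddMonoidHom (by
    rw [AddCon.addConGen_le]
    rintro _ _ ⟨e, m⟩
    rw [AddCon.ker_rel, LinearMap.toAddMonoidHom_coe, PiTensorProduct.lift.tprod,
      PiTensorProduct.lift.tprod]
    exact (hf e m).symm)
  map_add' x y := map_add _ x y
  map_smul' r x := AddCon.induction_on x fun x => (PiTensorProduct.lift f).map_smul r x

@[simp]
theorem lift_tprod (f : MultilinearMap R (fun _ : ι => M) N)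
    (hf : ∀ (e : Equiv.Perm ι) (m : ι → M), f (fun i => m (e i)) = f m) (m : ι → M) :
    lift f hf (SymmetricPower.tprod R m) = f m :=
  PiTensorProduct.lift.tprod (φ := f) m

theorem hom_ext {φ ψ : SymmetricPower R ι M →ₗ[R] N}
    (h : ∀ m : ι → M, φ (SymmetricPower.tprod R m) = ψ (SymmetricPower.tprod R m)) : φ = ψ := by
  have := SymmetricPower.span_tprod_eq_top R ι M
  refine LinearMap.ext_on this ?_
  rintro _ ⟨m, rfl⟩
  exact h m

end lift

section map

variable {R ι : Type u} [CommRing R] {M : Type v} {N : Type w} [AddCommGroup M] [Module R M]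
  [AddCommGroup N] [Module R N]

/-- Functoriality of symmetric powers. -/
def mapL (f : M →ₗ[R] N) : SymmetricPower R ι M →ₗ[R] SymmetricPower R ι N :=
  lift ((SymmetricPower.tprod R (ι := ι) (M := N)).compLinearMap (fun _ => f)) (by
    intro e m
    exact SymmetricPower.tprod_equiv e (fun i => f (m i)))

@[simp]
theorem mapL_tprod (f : M →ₗ[R] N) (m : ι → M) :
    mapL f (SymmetricPower.tprod R m) = SymmetricPower.tprod R (fun i => f (m i)) :=
  lift_tprod _ _ m

end map

section basis

variable {R ι : Type u} [CommRing R] {M : Type v} [AddCommGroup M] [Module R M]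
  {κ : Type w}

/-- The map from the symmetric power to the polynomial ring attached to a linear map to the linear
polynomials. -/
def toAlg [Fintype ι] {S : Type w} [CommRing S] [Algebra R S] (g : M →ₗ[R] S) :
    SymmetricPower R ι M →ₗ[R] S :=
  lift ((MultilinearMap.mkPiAlgebra R ι S).compLinearMap (fun _ => g)) (by
    intro e m
    simp only [MultilinearMap.compLinearMap_apply, MultilinearMap.mkPiAlgebra_apply]
    exact Equiv.prod_comp e (fun i => g (m i)))

@[simp]
theorem toAlg_tprod [Fintype ι] {S : Type w} [CommRing S] [Algebra R S] (g : M →ₗ[R] S) (m : ι → M) :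
    toAlg g (SymmetricPower.tprod R m) = ∏ i, g (m i) := by
  simp [toAlg]

/-- A family of elements of `κ` with a given multiset of values. -/
theorem exists_rep [Fintype ι] (s : Sym κ (Fintype.card ι)) :
    ∃ f : ι → κ, Finset.univ.val.map f = (s : Multiset κ) := by
  classical
  obtain ⟨l, hl⟩ := Quot.exists_rep (s : Multiset κ)
  have hlen : l.length = Fintype.card ι := by
    have := s.2
    rw [← Sym.card_coe (s := s), ← hl]
    rfl
  let e := Fintype.equivFin ι
  refine ⟨fun i => l.get ((e i).cast hlen.symm), ?_⟩
  have h1 : (Finset.univ.val.map fun i : ι => l.get ((e i).cast hlen.symm)) =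
      (Finset.univ.val.map fun j : Fin l.length => l.get j) := by
    let e' : ι ≃ Fin l.length := e.trans (finCongr hlen.symm)
    have : (Finset.univ : Finset (Fin l.length)) = Finset.univ.map e'.toEmbedding := by
      simp
    rw [this, Finset.map_val, Multiset.map_map]
    rfl
  rw [h1, ← hl]
  rw [Fin.univ_val_map]
  simp

/-- A chosen representative. -/
def rep [Fintype ι] (s : Sym κ (Fintype.card ι)) : ι → κ := (exists_rep s).choose

theorem rep_spec [Fintype ι] (s : Sym κ (Fintype.card ι)) :
    Finset.univ.val.map (rep s : ι → κ) = (s : Multiset κ) := (exists_rep s).choose_spec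

/-- Two families with the same multiset of values differ by a permutation. -/
theorem exists_perm [Fintype ι] (f g : ι → κ) (h : Finset.univ.val.map f = Finset.univ.val.map g) :
    ∃ e : Equiv.Perm ι, ∀ i, f (e i) = g i := by
  classical
  have hcard : ∀ k : κ, Fintype.card {i // g i = k} = Fintype.card {i // f i = k} := by
    intro k
    have h1 := congrArg (Multiset.count k) h
    rw [Multiset.count_map, Multiset.count_map] at h1
    rw [Fintype.card_subtype, Fintype.card_subtype]
    simp only [Finset.card, Finset.filter_val]
    simpa [eq_comm] using h1.symm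
  let e : ∀ k : κ, {i // g i = k} ≃ {i // f i = k} := fun k => Fintype.equivOfCardEq (hcard k)
  let E : ι ≃ ι := ((Equiv.sigmaFiberEquiv g).symm.trans (Equiv.sigmaCongrRight e)).trans
    (Equiv.sigmaFiberEquiv f)
  refine ⟨E, fun i => ?_⟩
  exact (e (g i) ⟨i, rfl⟩).2

theorem tprod_eq_of_map_eq [Fintype ι] (v : κ → M) (f g : ι → κ)
    (h : Finset.univ.val.map f = Finset.univ.val.map g) :
    SymmetricPower.tprod R (fun i => v (f i)) = SymmetricPower.tprod R (fun i => v (g i)) := by
  obtain ⟨e, he⟩ := exists_perm f g h
  have := SymmetricPower.tprod_equiv (R := R) e (fun i => v (f i))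
  rw [← this]
  congr 1
  funext i
  rw [he]

/-- The monomials: a family in the symmetric power indexed by multisets. -/
def mono [Fintype ι] (v : κ → M) (s : Sym κ (Fintype.card ι)) : SymmetricPower R ι M :=
  SymmetricPower.tprod R (fun i => v (rep s i))

/-- The multiset of values of a family. -/
def valSym [Fintype ι] (f : ι → κ) : Sym κ (Fintype.card ι) :=
  ⟨Finset.univ.val.map f, by simp⟩

theorem mono_valSym [Fintype ι] (v : κ → M) (f : ι → κ) :
    mono (R := R) v (valSym f) = SymmetricPower.tprod R (fun i => v (f i)) :=
  tprod_eq_of_map_eq v _ _ (by rw [rep_spec]; rfl)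

theorem prod_X_rep [DecidableEq κ] [Fintype ι] (f : ι → κ) :
    (∏ i, (MvPolynomial.X (f i) : MvPolynomial κ R)) =
      MvPolynomial.monomial (Multiset.toFinsupp (Finset.univ.val.map f)) 1 := by
  have : ∀ s : Multiset κ, (s.map (fun k => (MvPolynomial.X k : MvPolynomial κ R))).prod =
      MvPolynomial.monomial (Multiset.toFinsupp s) 1 := by
    intro s
    induction s using Multiset.induction_on with
    | empty => simp
    | cons a s ih =>
      rw [Multiset.map_cons, Multiset.prod_cons, ih, ← Multiset.singleton_add, map_add,
        Multiset.toFinsupp_singleton, MvPolynomial.X, MvPolynomial.monomial_mul, one_mul]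
  rw [← this, Multiset.map_map]
  rfl

theorem linearIndependent_mono [Fintype ι] (b : Module.Basis κ R M) :
    LinearIndependent R (mono (R := R) (ι := ι) b) := by
  classical
  apply LinearIndependent.of_comp (toAlg (b.constr R (fun k => (MvPolynomial.X k : MvPolynomial κ R))))
  have h : (toAlg (b.constr R (fun k => (MvPolynomial.X k : MvPolynomial κ R))) ∘
      mono (R := R) (ι := ι) b) = (MvPolynomial.basisMonomials κ R) ∘
        (fun s : Sym κ (Fintype.card ι) => Multiset.toFinsupp (s : Multiset κ)) := by
    funext s
    simp only [Function.comp_apply, mono, toAlg_tprod, Module.Basis.constr_basis,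
      MvPolynomial.coe_basisMonomials]
    rw [prod_X_rep, rep_spec]
  rw [h]
  exact (MvPolynomial.basisMonomials κ R).linearIndependent.comp _
    (Multiset.toFinsupp.injective.comp Sym.coe_injective)

theorem span_mono [Fintype ι] (v : κ → M) (hv : Submodule.span R (Set.range v) = ⊤) :
    Submodule.span R (Set.range (mono (R := R) (ι := ι) v)) = ⊤ := by
  classical
  set W := Submodule.span R (Set.range (mono (R := R) (ι := ι) v)) with hW
  -- pull back to the free module on `κ`
  let F : (κ →₀ R) →ₗ[R] M := Finsupp.linearCombination R v
  have hF : Function.Surjective F := by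
    rw [← LinearMap.range_eq_top, Finsupp.range_linearCombination, hv]
  have hq : W.mkQ.comp (mapL F) = (0 : SymmetricPower R ι (κ →₀ R) →ₗ[R] (SymmetricPower R ι M ⧸ W)) := by
    have key : (W.mkQ.comp (mapL F)).compMultilinearMap (SymmetricPower.tprod R (ι := ι)) =
        (0 : MultilinearMap R (fun _ : ι => (κ →₀ R)) _) := by
      refine Module.Basis.ext_multilinear (fun _ => Finsupp.basisSingleOne) ?_
      intro f
      simp only [LinearMap.compMultilinearMap_apply, LinearMap.comp_apply, mapL_tprod,
        zero_apply]
      rw [Submodule.mkQ_apply, Submodule.Quotient.mk_eq_zero]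
      have : (fun i => F (Finsupp.basisSingleOne (f i))) = fun i => v (f i) := by
        funext i
        simp [F]
      rw [this, ← mono_valSym]
      exact Submodule.subset_span ⟨_, rfl⟩
    refine hom_ext fun m => ?_
    exact congrArg (fun g => g m) key
  rw [eq_top_iff, ← SymmetricPower.span_tprod_eq_top R ι M, Submodule.span_le]
  rintro _ ⟨m, rfl⟩
  choose m' hm' using fun i => hF (m i)
  have h1 := congrArg (fun g => g (SymmetricPower.tprod R m')) hq
  simp only [LinearMap.comp_apply, mapL_tprod, LinearMap.zero_apply, hm'] at h1
  rwa [Submodule.mkQ_apply, Submodule.Quotient.mk_eq_zero] at h1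

/-- The monomial basis of the symmetric power of a free module. -/
def symBasis [Fintype ι] (b : Module.Basis κ R M) :
    Module.Basis (Sym κ (Fintype.card ι)) R (SymmetricPower R ι M) :=
  Module.Basis.mk (linearIndependent_mono b) (span_mono _ b.span_eq).ge

theorem symBasis_apply [Fintype ι] (b : Module.Basis κ R M) (s : Sym κ (Fintype.card ι)) :
    symBasis b s = mono (R := R) (ι := ι) b s := by
  simp [symBasis]

theorem symBasis_valSym [Fintype ι] (b : Module.Basis κ R M) (f : ι → κ) :
    symBasis b (valSym f) = SymmetricPower.tprod R (fun i => b (f i)) := by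
  rw [symBasis_apply, mono_valSym]

instance free_symmetricPower [Finite ι] [Module.Free R M] : Module.Free R (SymmetricPower R ι M) := by
  have := Fintype.ofFinite ι
  exact Module.Free.of_basis (symBasis (Module.Free.chooseBasis R M))

end basis

section projective

variable {R ι : Type u} [CommRing R] {M : Type u} [AddCommGroup M] [Module R M]

/-- The symmetric powers of a projective module are projective. -/
theorem projective_symmetricPower [Finite ι] [Module.Projective R M] :
    Module.Projective R (SymmetricPower R ι M) := by
  obtain ⟨s, hs⟩ := Module.projective_def'.mp ‹Module.Projective R M›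
  refine Module.Projective.of_split (M := SymmetricPower R ι (M →₀ R)) (mapL s)
    (mapL (Finsupp.linearCombination R id)) ?_
  refine hom_ext fun m => ?_
  simp only [LinearMap.comp_apply, mapL_tprod, LinearMap.id_apply]
  congr 1
  funext i
  exact congrArg (fun g => g (m i)) hs

end projective

end Groth.Agent.Ega4late.H518.SymFree
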