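import Groth.Prelude.Def_PP16
import Mathlib.RingTheory.Kaehler.TensorProduct
import Mathlib.RingTheory.Flat.Basic
import Groth.Agent.S3806
import Groth.Agent.Ega4late.H518.SymFree
import Groth.Agent.Ega4late.H519.GrMap
import Groth.Agent.Ega4late.H516.CanonMap

/-!
# Graded pieces `I^n/I^(n+1)` inside the principal parts, and their base change

The exact sequences `0 → I^n/I^(n+1) → (B ⊗ B)/I^(n+1) → (B ⊗ B)/I^n → 0`; they split when all the
graded pieces are projective, e.g. when `B` is differentially smooth over `A`.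
-/

set_option autoImplicit false

noncomputable section

open scoped TensorProduct
open PP16

namespace Groth.Agent.Ega4late.H518.GrBC

universe u

section seq

variable (A B : Type u) [CommRing A] [CommRing B] [Algebra A B]

/-- The quotient `(B ⊗ B)/I^n` (so that `P n A B = Q A B (n + 1)`). -/
abbrev Q (n : ℕ) : Type u := (B ⊗[A] B) ⧸ (KaehlerDifferential.ideal A B) ^ n

/-- The inclusion `I^n/I^(n+1) → (B ⊗ B)/I^(n+1)`. -/
def incl (n : ℕ) : grI A B n →ₗ[B] P n A B :=
  Submodule.liftQ _ ((Ideal.Quotient.mkₐ B ((KaehlerDifferential.ideal A B) ^ (n + 1))).toLinearMap ∘ₗ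
    ((KaehlerDifferential.ideal A B ^ n).restrictScalars B).subtype) (by
      intro x hx
      rw [LinearMap.mem_ker]
      exact Ideal.Quotient.eq_zero_iff_mem.mpr hx)

theorem incl_mk (n : ℕ) (x : ↥((KaehlerDifferential.ideal A B ^ n).restrictScalars B)) :
    incl A B n (Submodule.Quotient.mk x) = Ideal.Quotient.mk _ (x : B ⊗[A] B) := rfl

theorem incl_injective (n : ℕ) : Function.Injective (incl A B n) := by
  rw [injective_iff_map_eq_zero]
  intro x hx
  obtain ⟨x, rfl⟩ := Submodule.Quotient.mk_surjective _ x
  rw [incl_mk, Ideal.Quotient.eq_zero_iff_mem] at hx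
  exact (Submodule.Quotient.mk_eq_zero _).mpr hx

/-- The projection `(B ⊗ B)/I^(n+1) → (B ⊗ B)/I^n`. -/
def proj (n : ℕ) : P n A B →ₗ[B] Q A B n :=
  (Ideal.Quotient.factorₐ B (Ideal.pow_le_pow_right (Nat.le_succ n))).toLinearMap

theorem proj_mk (n : ℕ) (x : B ⊗[A] B) : proj A B n (Ideal.Quotient.mk _ x) = Ideal.Quotient.mk _ x :=
  rfl

theorem proj_surjective (n : ℕ) : Function.Surjective (proj A B n) := by
  intro y
  obtain ⟨x, rfl⟩ := Ideal.Quotient.mk_surjective y
  exact ⟨Ideal.Quotient.mk _ x, rfl⟩

theorem exact_incl_proj (n : ℕ) : Function.Exact (incl A B n) (proj A B n) := by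
  intro y
  obtain ⟨x, rfl⟩ := Ideal.Quotient.mk_surjective y
  rw [proj_mk, Ideal.Quotient.eq_zero_iff_mem]
  constructor
  · intro hx
    exact ⟨Submodule.Quotient.mk ⟨x, hx⟩, rfl⟩
  · rintro ⟨z, hz⟩
    obtain ⟨z, rfl⟩ := Submodule.Quotient.mk_surjective _ z
    rw [incl_mk, Ideal.Quotient.eq] at hz
    have h1 := Ideal.pow_le_pow_right (Nat.le_succ n) hz
    have h2 : (z : B ⊗[A] B) ∈ KaehlerDifferential.ideal A B ^ n := z.2
    have := sub_mem h2 h1
    simpa using this

variable {A B}

theorem projective_Q (h : ∀ n, Module.Projective B (grI A B n)) (n : ℕ) :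
    Module.Projective B (Q A B n) := by
  induction n with
  | zero =>
    have : Subsingleton (Q A B 0) := by
      rw [Ideal.Quotient.subsingleton_iff]; simp
    infer_instance
  | succ n ih =>
    have := h n
    obtain ⟨s, hs⟩ := Module.projective_lifting_property (proj A B n) LinearMap.id
      (proj_surjective A B n)
    exact Module.Projective.of_equiv ((exact_incl_proj A B n).splitSurjectiveEquiv
      (incl_injective A B n) (Subtype.mk s hs)).1.symm

theorem exists_retraction (h : ∀ n, Module.Projective B (grI A B n)) (n : ℕ) :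
    ∃ r : P n A B →ₗ[B] grI A B n, r ∘ₗ incl A B n = LinearMap.id := by
  have := projective_Q h n
  obtain ⟨s, hs⟩ := Module.projective_lifting_property (proj A B n) LinearMap.id
      (proj_surjective A B n)
  obtain ⟨e, he, -⟩ := (exact_incl_proj A B n).splitSurjectiveEquiv
      (incl_injective A B n) (Subtype.mk s hs)
  refine ⟨LinearMap.fst B _ _ ∘ₗ e.toLinearMap, ?_⟩
  rw [he]
  ext x
  simp

theorem projective_grI (h : IsDiffSmooth A B) (n : ℕ) : Module.Projective B (grI A B n) := by
  have h1 := h.1
  obtain ⟨φ, -, hb⟩ := h.2 (ULift.{u} (Fin n))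
  have := SymFree.projective_symmetricPower (R := B) (ι := ULift.{u} (Fin n))
    (M := KaehlerDifferential A B)
  have h2 : Module.Projective B (grI A B (Fintype.card (ULift.{u} (Fin n)))) :=
    Module.Projective.of_equiv (LinearEquiv.ofBijective φ hb)
  have h3 : Fintype.card (ULift.{u} (Fin n)) = n := by simp
  rwa [h3] at h2

end seq

section bc

variable (A B A' B' : Type u) [CommRing A] [CommRing B] [Algebra A B]
  [CommRing A'] [CommRing B'] [Algebra A' B'] [Algebra A A'] [Algebra B B'] [Algebra A B']
  [IsScalarTower A A' B'] [IsScalarTower A B B']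

/-- The module of differentials commutes with base change. -/
theorem isBaseChange_kaehler [Algebra.IsPushout A B A' B'] :
    IsBaseChange B' (KaehlerDifferential.map A A' B B') := by
  have : Algebra.IsPushout A A' B B' := Algebra.IsPushout.symm inferInstance
  refine IsBaseChange.of_equiv (KaehlerDifferential.tensorKaehlerEquiv A A' B B') ?_
  have : (KaehlerDifferential.tensorKaehlerEquiv A A' B B').toLinearMap.restrictScalars B ∘ₗ
      TensorProduct.mk B B' (KaehlerDifferential A B) 1 = KaehlerDifferential.map A A' B B' := by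
    apply LinearMap.ext_on_range (KaehlerDifferential.span_range_derivation A B)
    intro b
    simp
  exact fun x => LinearMap.congr_fun this x

attribute [local instance] PP16.mapAlgebra PP16.isScalarTower_mapAlgebra in
/-- The rings of principal parts commute with base change. -/
theorem isBaseChange_P [Algebra.IsPushout A B A' B'] (n : ℕ) :
    ∃ g : P n A B →ₗ[B] P n A' B', IsBaseChange B' g ∧ ∀ x, g x = map n A B A' B' x := by
  have h := (Groth.Agent.S3806.result n A B A' B').symm.out
  exact ⟨_, h, fun x => rfl⟩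

/-- Differential smoothness is preserved by base change. -/
theorem isDiffSmooth_baseChange [Algebra.IsPushout A B A' B'] (h : PP16.IsDiffSmooth A B) :
    PP16.IsDiffSmooth A' B' := by
  have hΩ := isBaseChange_kaehler A B A' B'
  have hproj := h.1
  rw [H516.CanonMap.isDiffSmooth_iff]
  refine ⟨?_, ?_⟩
  · exact Module.Projective.of_equiv hΩ.equiv
  intro ι _
  have hinj := (H516.CanonMap.isDiffSmooth_iff A B).mp h |>.2 ι
  obtain ⟨r, hr⟩ := exists_retraction (projective_grI h) (Fintype.card ι)
  obtain ⟨g, hg, hgm⟩ := isBaseChange_P A B A' B' (Fintype.card ι)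
  -- the big map
  let Ψ : B' ⊗[B] SymmetricPower B ι (KaehlerDifferential A B) →ₗ[B'] P (Fintype.card ι) A' B' :=
    hg.equiv.toLinearMap ∘ₗ
      (LinearMap.baseChange B' (incl A B (Fintype.card ι) ∘ₗ H516.CanonMap.canon A B ι))
  have hΨ : Function.Injective Ψ := by
    refine hg.equiv.injective.comp ?_
    let c := LinearEquiv.ofBijective (H516.CanonMap.canon A B ι)
      ⟨hinj, H516.CanonMap.canon_surjective A B ι⟩
    refine Function.LeftInverse.injective
      (g := LinearMap.baseChange B' (c.symm.toLinearMap ∘ₗ r)) ?_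
    intro x
    rw [← LinearMap.comp_apply, ← LinearMap.baseChange_comp]
    have : (c.symm.toLinearMap ∘ₗ r) ∘ₗ (incl A B (Fintype.card ι) ∘ₗ H516.CanonMap.canon A B ι) =
        LinearMap.id := by
      refine LinearMap.ext fun x => ?_
      have h1 := LinearMap.congr_fun hr (H516.CanonMap.canon A B ι x)
      simp only [LinearMap.comp_apply, LinearMap.id_apply] at h1 ⊢
      rw [h1]
      exact c.symm_apply_apply x
    rw [this, LinearMap.baseChange_id]
    rfl
  have hcomp : Ψ = (incl A' B' (Fintype.card ι) ∘ₗ H516.CanonMap.canon A' B' ι) ∘ₗ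
      (H519.SymBC.symBC (ι := ι) hΩ).toLinearMap := by
    refine TensorProduct.AlgebraTensorModule.curry_injective ?_
    refine LinearMap.ext_ring ?_
    refine H516.SymPow.hom_ext_on_span (fun b => KaehlerDifferential.D A B b)
      (KaehlerDifferential.span_range_derivation A B) fun b => ?_
    change Ψ (1 ⊗ₜ SymmetricPower.tprod B fun i => KaehlerDifferential.D A B (b i)) =
      incl A' B' (Fintype.card ι) (H516.CanonMap.canon A' B' ι (H519.SymBC.symBC (ι := ι) hΩ
        (1 ⊗ₜ SymmetricPower.tprod B fun i => KaehlerDifferential.D A B (b i))))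
    rw [H519.SymBC.symBC_tmul_tprod, one_smul]
    simp only [Ψ, LinearMap.comp_apply, LinearMap.baseChange_tmul, LinearEquiv.coe_coe,
      IsBaseChange.equiv_tmul, one_smul, hgm, KaehlerDifferential.map_D]
    rw [H516.CanonMap.canon_tprod_D, H516.CanonMap.canon_tprod_D, zetaProd, zetaProd, incl_mk, incl_mk,
      map_mk]
    congr 1
    rw [map_prod]
    refine Finset.prod_congr rfl fun i _ => ?_
    rw [map_sub, tensorMap_tmul, tensorMap_tmul, map_one]
  rw [hcomp, LinearMap.coe_comp, LinearMap.coe_comp] at hΨ
  have h2 := Function.Injective.of_comp_right hΨ (H519.SymBC.symBC (ι := ι) hΩ).surjective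
  exact Function.Injective.of_comp h2

end bc

end Groth.Agent.Ega4late.H518.GrBC
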